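import Mathlib

/-!
# S3435, packet FIN: loops for the kernel (helper7)
-/

set_option autoImplicit false

namespace Cfsg.Agent.R2.Spec.FIN

/-- strict evaluation of a number -/
noncomputable def force {α : Type} (n : ℕ) (f : ℕ → α) : α := Nat.rec (f 0) (fun k _ => f (Nat.succ k)) n

theorem force_eq {α : Type} (n : ℕ) (f : ℕ → α) : force n f = f n := by cases n <;> rfl

/-- `f` holds below `n` -/
noncomputable def allTo (f : ℕ → Bool) (n : ℕ) : Bool := Nat.rec true (fun k ih => f k && ih) n

theorem allTo_succ (f : ℕ → Bool) (n : ℕ) : allTo f (n + 1) = (f n && allTo f n) := rfl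

theorem allTo_sound {f : ℕ → Bool} {n : ℕ} (h : allTo f n = true) : ∀ k, k < n → f k = true := by
  induction n with
  | zero => intro k hk; omega
  | succ n ih =>
    rw [allTo_succ, Bool.and_eq_true] at h
    intro k hk
    by_cases hkn : k = n
    · rw [hkn]; exact h.1
    · exact ih h.2 k (by omega)

/-- `g` holds for `v, v + 1, ...` as long as `x ^ k ≤ B` -/
noncomputable def loopV (g : ℕ → Bool) (k B : ℕ) (fuel : ℕ) : ℕ → Bool :=
  Nat.rec (fun _ => false) (fun _ ih v => Nat.blt B (v ^ k) || (g v && force (v + 1) ih)) fuel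

theorem loopV_succ (g : ℕ → Bool) (k B fuel v : ℕ) :
    loopV g k B (fuel + 1) v = (Nat.blt B (v ^ k) || (g v && loopV g k B fuel (v + 1))) := by
  change (Nat.blt B (v ^ k) || (g v && force (v + 1) (loopV g k B fuel))) = _
  rw [force_eq]

theorem loopV_sound {g : ℕ → Bool} {k B fuel : ℕ} : ∀ {v : ℕ}, loopV g k B fuel v = true →
    ∀ x, v ≤ x → x ^ k ≤ B → g x = true := by
  induction fuel with
  | zero =>
    intro v h
    exact Bool.noConfusion h
  | succ fuel ih =>
    intro v h x hvx hxB
    rw [loopV_succ, Bool.or_eq_true, Bool.and_eq_true] at h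
    have h0 : ¬ (Nat.blt B (v ^ k) = true) := by
      rw [Nat.blt_eq, not_lt]
      exact (Nat.pow_le_pow_left hvx k).trans hxB
    obtain ⟨h1, h2⟩ := h.resolve_left h0
    by_cases hvx' : x = v
    · rw [hvx']; exact h1
    · exact ih h2 x (by omega) hxB

end Cfsg.Agent.R2.Spec.FIN
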